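import Cfsg.Agent.H760.StrRow
/-!
# Components of type `G₂` (helper760, for S5305)


* `focal_commute` : the focal subgroup argument;
* `Sit.typeB` : in the second case of the row hypothesis `A ∩ K` is normal in `F_S(G)`, abelian and `A ≤ (A ∩ K) C_G(K)`.
-/
set_option autoImplicit false

universe u

namespace Cfsg.Agent.H760.Str

open Subgroup Cfsg Cfsg.Agent.H792.MinClosed
open scoped commutatorElement

/-- If `x`, `n` change `a` by central elements then `[x, n]` centralizes `a`. -/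
theorem commutator_commute {Y : Type*} [Group Y] {x n a z w : Y} (hzi : ∀ y : Y, y * z = z * y) (hwi : ∀ y : Y, y * w = w * y)
    (e1' : x * a = z * a * x) (e2' : n * a = w * a * n) : (x * n * x⁻¹ * n⁻¹) * a = a * (x * n * x⁻¹ * n⁻¹) := by
  -- `x⁻¹ a x = z⁻¹ a`
  have e3 : x⁻¹ * a = z⁻¹ * a * x⁻¹ := by
    have : x * (z⁻¹ * a * x⁻¹) = a := by
      have hzi' : x * z⁻¹ = z⁻¹ * x := by
        rw [eq_inv_mul_iff_mul_eq, ← mul_assoc, ← hzi x, mul_assoc, mul_inv_cancel, mul_one]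
      calc x * (z⁻¹ * a * x⁻¹) = (x * z⁻¹) * a * x⁻¹ := by group
        _ = z⁻¹ * (x * a) * x⁻¹ := by rw [hzi']; group
        _ = z⁻¹ * (z * a * x) * x⁻¹ := by rw [e1']
        _ = a := by group
    calc x⁻¹ * a = x⁻¹ * (x * (z⁻¹ * a * x⁻¹)) := by rw [this]
      _ = z⁻¹ * a * x⁻¹ := by group
  have e4 : n⁻¹ * a = w⁻¹ * a * n⁻¹ := by
    have : n * (w⁻¹ * a * n⁻¹) = a := by
      have hwi' : n * w⁻¹ = w⁻¹ * n := by
        rw [eq_inv_mul_iff_mul_eq, ← mul_assoc, ← hwi n, mul_assoc, mul_inv_cancel, mul_one]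
      calc n * (w⁻¹ * a * n⁻¹) = (n * w⁻¹) * a * n⁻¹ := by group
        _ = w⁻¹ * (n * a) * n⁻¹ := by rw [hwi']; group
        _ = w⁻¹ * (w * a * n) * n⁻¹ := by rw [e2']
        _ = a := by group
    calc n⁻¹ * a = n⁻¹ * (n * (w⁻¹ * a * n⁻¹)) := by rw [this]
      _ = w⁻¹ * a * n⁻¹ := by group
  have cz : ∀ y : Y, y * z⁻¹ = z⁻¹ * y := fun y => by
    rw [eq_inv_mul_iff_mul_eq, ← mul_assoc, ← hzi y, mul_assoc, mul_inv_cancel, mul_one]
  have cw : ∀ y : Y, y * w⁻¹ = w⁻¹ * y := fun y => by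
    rw [eq_inv_mul_iff_mul_eq, ← mul_assoc, ← hwi y, mul_assoc, mul_inv_cancel, mul_one]
  calc (x * n * x⁻¹ * n⁻¹) * a = x * n * x⁻¹ * (n⁻¹ * a) := by group
    _ = x * n * x⁻¹ * (w⁻¹ * a * n⁻¹) := by rw [e4]
    _ = (x * n * x⁻¹ * w⁻¹) * a * n⁻¹ := by group
    _ = (w⁻¹ * (x * n * x⁻¹)) * a * n⁻¹ := by rw [cw]
    _ = w⁻¹ * x * n * (x⁻¹ * a) * n⁻¹ := by group
    _ = w⁻¹ * x * n * (z⁻¹ * a * x⁻¹) * n⁻¹ := by rw [e3]
    _ = (w⁻¹ * x * n * z⁻¹) * a * x⁻¹ * n⁻¹ := by group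
    _ = (z⁻¹ * (w⁻¹ * x * n)) * a * x⁻¹ * n⁻¹ := by rw [cz]
    _ = z⁻¹ * w⁻¹ * x * (n * a) * x⁻¹ * n⁻¹ := by group
    _ = z⁻¹ * w⁻¹ * x * (w * a * n) * x⁻¹ * n⁻¹ := by rw [e2']
    _ = z⁻¹ * w⁻¹ * (x * w) * a * n * x⁻¹ * n⁻¹ := by group
    _ = z⁻¹ * w⁻¹ * (w * x) * a * n * x⁻¹ * n⁻¹ := by rw [hwi]
    _ = z⁻¹ * (x * a) * n * x⁻¹ * n⁻¹ := by group
    _ = z⁻¹ * (z * a * x) * n * x⁻¹ * n⁻¹ := by rw [e1']
    _ = a * (x * n * x⁻¹ * n⁻¹) := by group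

/-- **The focal subgroup argument.** -/
theorem focal_commute {Y : Type*} [Group Y] [Finite Y] {p : ℕ} [hpf : Fact p.Prime] (P : Sylow p Y) {D : Subgroup Y}
    (hD : IsStronglyClosed D (P : Subgroup Y)) (hab : ⁅D, D⁆ = ⊥) (Z : Subgroup Y) (hZ : ∀ z ∈ Z, ∀ y : Y, y * z = z * y)
    {a : Y} (ha : a ∈ D) (hcon : ∀ y : Y, y * a * y⁻¹ ∈ D → y * a * y⁻¹ * a⁻¹ ∈ Z) {x : Y} (hx : x ∈ (P : Subgroup Y))
    (hx' : x ∈ _root_.commutator Y) : x * a = a * x := by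
  have hcop : Nat.Coprime (P : Subgroup Y).index (⁅(P : Subgroup Y), (P : Subgroup Y)⁆.relIndex (P : Subgroup Y)) := by
    refine Transfer.FocalHall.coprime_of_hall _ ?_
    obtain ⟨n, hn⟩ := IsPGroup.iff_card.mp P.2
    rw [hn]
    exact Nat.Coprime.pow_left n ((Nat.Prime.coprime_iff_not_dvd hpf.out).mpr P.not_dvd_index)
  have h1 := Transfer.FocalHall.focal_eq (P : Subgroup Y) hcop
  have hnorm : (groupFusionSystem (P : Subgroup Y)).IsNormal D :=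
    H759.isNormal_of_abelian P.2 (H802.groupFusionSystem_isSaturated P) (stronglyClosed_fusion hD) hab
  have hctl := ctl_of_isNormal hnorm
  have hPN := H280.StrongZJ.le_normalizer_of_stronglyClosed hD
  -- the elements of `N(D)` change `a` by a central element
  have hN : ∀ n ∈ normalizer (D : Set Y), ∃ z ∈ Z, n * a * n⁻¹ = z * a := by
    intro n hn
    exact ⟨_, hcon n ((mem_normalizer_iff.1 hn a).1 ha), by group⟩
  have hcomm : ∀ x ∈ normalizer (D : Set Y), ∀ n ∈ normalizer (D : Set Y), (x * n * x⁻¹ * n⁻¹) * a = a * (x * n * x⁻¹ * n⁻¹) := by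
    intro x hx n hn
    obtain ⟨z, hz, e1⟩ := hN x hx
    obtain ⟨w, hw, e2⟩ := hN n hn
    have e1' : x * a = z * a * x := by rw [← e1]; group
    have e2' : n * a = w * a * n := by rw [← e2]; group
    exact commutator_commute (hZ z hz) (hZ w hw) e1' e2'
  have hxf : x ∈ (P : Subgroup Y).focalSubgroup := by rw [h1]; exact ⟨hx', hx⟩
  have hle : (P : Subgroup Y).focalSubgroup ≤ centralizer ({a} : Set Y) := by
    rw [focalSubgroup_def, closure_le]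
    rintro _ ⟨hg, x, hx, u, rfl⟩
    rw [SetLike.mem_coe, mem_centralizer_singleton_iff]
    have e1 : (⁅x, u⁆ : Y) = x * (u * x⁻¹ * u⁻¹) := by rw [commutatorElement_def]; group
    have hg' : ⁅x, u⁆ ∈ (P : Subgroup Y) := hg
    have hux : u * x⁻¹ * u⁻¹ ∈ (P : Subgroup Y) := by
      rw [e1] at hg'
      have := mul_mem (inv_mem hx) hg'
      rwa [inv_mul_cancel_left] at this
    obtain ⟨n, hn, hnx⟩ := hctl (zpowers x⁻¹) (zpowers_le.2 (inv_mem hx)) u (by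
      intro y hy
      obtain ⟨k, rfl⟩ := mem_zpowers_iff.1 hy
      rw [← conj_zpow]
      exact zpow_mem hux k)
    have e2 := hnx _ (mem_zpowers x⁻¹)
    rw [e1, ← e2]
    have e3 : x * (n * x⁻¹ * n⁻¹) = x * n * x⁻¹ * n⁻¹ := by group
    rw [e3]
    exact hcomm x (hPN hx) n hn
  exact mem_centralizer_singleton_iff.1 (hle hxf)

variable {G : Type u} [Group G] [Finite G] {p : ℕ} [hpf : Fact p.Prime]
variable {S : Sylow p G} {A : Subgroup G}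

theorem Sit.card_inf (h : Sit S A) {K : Subgroup G} (hK : IsComponent K) : Nat.card ↥(A ⊓ K) = Nat.card (PB A K) := by
  have hmem : ∀ x : ↥(A ⊓ K), QuotientGroup.mk' (center K) ⟨x, x.2.2⟩ ∈ PB A K := fun x => ⟨⟨x, x.2.2⟩, x.2.1, rfl⟩
  refine Nat.card_congr (Equiv.ofBijective (fun x => ⟨_, hmem x⟩) ⟨fun x y hxy => ?_, ?_⟩)
  · have h1 : QuotientGroup.mk' (center K) ⟨x, x.2.2⟩ = QuotientGroup.mk' (center K) ⟨y, y.2.2⟩ := congrArg Subtype.val hxy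
    have h2 : (⟨x, x.2.2⟩ : K)⁻¹ * ⟨y, y.2.2⟩ ∈ center K := QuotientGroup.eq.mp h1
    have h3 : (x : G)⁻¹ * y ∈ pCore p G := h.center_le hK (K.mul_mem (K.inv_mem x.2.2) y.2.2) (mem_center_of.1 h2)
    have h4 : (x : G)⁻¹ * y ∈ A ⊓ pCore p G := ⟨A.mul_mem (A.inv_mem x.2.1) y.2.1, h3⟩
    rw [h.inf_pCore, mem_bot] at h4
    exact Subtype.ext (inv_mul_eq_one.1 h4)
  · rintro ⟨_, ⟨y, hy, rfl⟩⟩
    exact ⟨⟨y, hy, y.2⟩, rfl⟩

/-- `A` centralizes `S ∩ K`, in the second case of the row hypothesis -/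
theorem Sit.commute_typeB (h : Sit S A) {K : Subgroup G} (hK : IsComponent K)
    (hr : RowB p (PB (S : Subgroup G) K) (PB A K)) {a s : G} (ha : a ∈ A) (hs : s ∈ (S : Subgroup G) ⊓ K) : s * a = a * s := by
  have hKn := h.comp_normal hK
  have hcard : Nat.card ↥(A ⊓ K) = p := by rw [h.card_inf hK]; exact hr.2.1
  have hZS : ∀ z ∈ K, z ∈ centralizer (K : Set G) → z ∈ (S : Subgroup G) := fun z hz hzc =>
    Lib.Cores.pCore_le_sylow S (h.center_le hK hz hzc)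
  have hcen : ∀ z ∈ K, z ∈ centralizer (K : Set G) → ∀ g : G, g * z = z * g := fun z hz hzc g =>
    (mem_center_iff.1 (h.pCore_le_center (h.center_le hK hz hzc))) g
  -- `A ∩ K` is central in `S`
  have hconj : ∀ t ∈ (S : Subgroup G), ∀ x ∈ A ⊓ K, t * x * t⁻¹ ∈ A ⊓ K := fun t ht x hx =>
    ⟨h.closed.2 x hx.1 t (mul_mem (mul_mem ht (h.closed.1 hx.1)) (inv_mem ht)), hKn.conj_mem x hx.2 t⟩
  have hScen : ∀ t ∈ (S : Subgroup G), ∀ x ∈ A ⊓ K, t * x = x * t := fun t ht x hx => by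
    obtain ⟨n, hn⟩ := S.2 ⟨t, ht⟩
    exact commute_of_card hcard ⟨n, by simpa using congrArg Subtype.val hn⟩ (hconj t ht) hx
  have haS := h.closed.1 ha
  -- the groups
  obtain ⟨Y, hY⟩ : ∃ Y, Y = K ⊔ zpowers a := ⟨_, rfl⟩
  obtain ⟨Y1, hY1⟩ : ∃ Y1, Y1 = Y ⊓ centralizer ((A ⊓ K : Subgroup G) : Set G) := ⟨_, rfl⟩
  have hYmem : ∀ y ∈ Y, ∃ k ∈ K, ∃ i : ℤ, y = k * a ^ i := by
    intro y hy
    rw [hY] at hy
    obtain ⟨k, hk, t, ht, rfl⟩ := Subgroup.mem_sup_of_normal_left.1 hy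
    obtain ⟨i, rfl⟩ := mem_zpowers_iff.1 ht
    exact ⟨k, hk, i, rfl⟩
  have hKY : K ≤ Y := by rw [hY]; exact le_sup_left
  have haY : a ∈ Y := by rw [hY]; exact mem_sup_right (mem_zpowers a)
  have hY1mem : ∀ t : G, t ∈ Y1 ↔ t ∈ Y ∧ ∀ x ∈ A ⊓ K, x * t = t * x := by
    intro t
    rw [hY1, mem_inf, mem_centralizer_iff]
    rfl
  have hSY1 : ∀ t ∈ (S : Subgroup G), t ∈ Y → t ∈ Y1 := by
    intro t ht htY
    exact (hY1mem t).2 ⟨htY, fun x hx => (hScen t ht x hx).symm⟩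
  have haY1 : a ∈ Y1 := hSY1 a haS haY
  have hQK : ¬ p ∣ (S : Subgroup G).relIndex K :=
    H222.SylowJoin.not_dvd_relIndex_of_subnormal S.2 S.not_dvd_index hK.1
  -- the Sylow subgroup of `Y1`
  have hP0 : IsPGroup p ↥((S : Subgroup G).subgroupOf Y1) := S.2.comap_of_injective Y1.subtype Y1.subtype_injective
  obtain ⟨P, hP0P⟩ := hP0.exists_le_sylow
  have hPS : ∀ x : Y1, x ∈ (P : Subgroup Y1) → (x : G) ∈ (S : Subgroup G) := by
    intro x hx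
    have hR : IsPGroup p ↥(((P : Subgroup Y1).map Y1.subtype) ⊓ K) :=
      (P.2.map Y1.subtype).to_le inf_le_left
    have hSR : (S : Subgroup G) ⊓ K ≤ ((P : Subgroup Y1).map Y1.subtype) ⊓ K := by
      intro t ht
      exact ⟨⟨⟨t, hSY1 t ht.1 (hKY ht.2)⟩, hP0P ht.1, rfl⟩, ht.2⟩
    have hRS : ((P : Subgroup Y1).map Y1.subtype) ⊓ K ≤ (S : Subgroup G) ⊓ K :=
      H222.SylowJoin.le_of_not_dvd hR inf_le_right hSR (by rwa [inf_relIndex_right])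
    have hxY : (x : G) ∈ Y := ((hY1mem _).1 x.2).1
    obtain ⟨k, hk, i, e⟩ := hYmem _ hxY
    have hai : (⟨a, haY1⟩ : Y1) ^ i ∈ (P : Subgroup Y1) := zpow_mem (hP0P haS) i
    have hk1 : k = (((x * ((⟨a, haY1⟩ : Y1) ^ i)⁻¹ : Y1)) : G) := by
      push_cast
      rw [e]; group
    have hkR : k ∈ ((P : Subgroup Y1).map Y1.subtype) ⊓ K := by
      refine ⟨?_, hk⟩
      rw [hk1]
      exact ⟨_, mul_mem hx (inv_mem hai), rfl⟩
    rw [e]
    exact mul_mem (hRS hkR).1 (zpow_mem haS i)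
  have hPiff : ∀ x : Y1, x ∈ (P : Subgroup Y1) ↔ (x : G) ∈ (S : Subgroup G) := fun x => ⟨hPS x, fun hx => hP0P hx⟩
  -- the strongly closed subgroup
  have hDcl : IsStronglyClosed (A.subgroupOf Y1) (P : Subgroup Y1) := by
    refine ⟨fun x hx => (hPiff x).2 (h.closed.1 hx), fun x hx g hg => ?_⟩
    exact h.closed.2 x hx g ((hPiff _).1 hg)
  have hDmem : ∀ x ∈ A, x ∈ Y → ∃ k ∈ A ⊓ K, ∃ i : ℤ, x = k * a ^ i := by
    intro x hx hxY
    obtain ⟨k, hk, i, rfl⟩ := hYmem x hxY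
    refine ⟨k, ⟨?_, hk⟩, i, rfl⟩
    have := A.mul_mem hx (A.inv_mem (A.zpow_mem ha i))
    rwa [mul_inv_cancel_right] at this
  have hDab : ⁅A.subgroupOf Y1, A.subgroupOf Y1⁆ = ⊥ := by
    rw [commutator_eq_bot_iff_le_centralizer]
    intro x hx
    rw [mem_centralizer_iff]
    intro y hy
    apply Subtype.ext
    have hYle : Y1 ≤ Y := fun t ht => ((hY1mem t).1 ht).1
    obtain ⟨k, hk, i, e1⟩ := hDmem x hx (hYle x.2)
    obtain ⟨l, hl, j, e2⟩ := hDmem y hy (hYle y.2)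
    show (y : G) * x = x * y
    rw [e1, e2]
    have c1 : a ^ j * k = k * a ^ j := hScen _ (zpow_mem haS j) k hk
    have c2 : a ^ i * l = l * a ^ i := hScen _ (zpow_mem haS i) l hl
    have c3 : l * k = k * l := hScen l (h.closed.1 hl.1) k hk
    have c4 : a ^ j * a ^ i = a ^ i * a ^ j := (Commute.refl a).zpow_zpow j i
    calc l * a ^ j * (k * a ^ i) = l * (a ^ j * k) * a ^ i := by group
      _ = (l * k) * (a ^ j * a ^ i) := by rw [c1]; group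
      _ = (k * l) * (a ^ i * a ^ j) := by rw [c3, c4]
      _ = k * (l * a ^ i) * a ^ j := by group
      _ = k * (a ^ i * l) * a ^ j := by rw [c2]
      _ = k * a ^ i * (l * a ^ j) := by group
  have hZcen : ∀ z ∈ (A ⊓ K).subgroupOf Y1, ∀ y : Y1, y * z = z * y := by
    intro z hz y
    exact Subtype.ext (((hY1mem _).1 y.2).2 z hz).symm
  have hcon : ∀ y : Y1, y * ⟨a, haY1⟩ * y⁻¹ ∈ A.subgroupOf Y1 →
      y * ⟨a, haY1⟩ * y⁻¹ * (⟨a, haY1⟩ : Y1)⁻¹ ∈ (A ⊓ K).subgroupOf Y1 := by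
    intro y hy
    have hyY : (y : G) ∈ Y := ((hY1mem _).1 y.2).1
    have hy' : (y : G) * a * (y : G)⁻¹ ∈ A := hy
    refine ⟨A.mul_mem hy' (A.inv_mem ha), ?_⟩
    show (y : G) * a * (y : G)⁻¹ * a⁻¹ ∈ K
    obtain ⟨k, hk, i, e⟩ := hYmem _ hyY
    rw [e]
    have e2 : k * a ^ i * a * (k * a ^ i)⁻¹ * a⁻¹ = k * (a * k⁻¹ * a⁻¹) := by
      have : a ^ i * a = a * a ^ i := ((Commute.refl a).zpow_left i)
      calc k * a ^ i * a * (k * a ^ i)⁻¹ * a⁻¹ = k * (a ^ i * a) * (a ^ i)⁻¹ * k⁻¹ * a⁻¹ := by group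
        _ = k * (a * a ^ i) * (a ^ i)⁻¹ * k⁻¹ * a⁻¹ := by rw [this]
        _ = k * (a * k⁻¹ * a⁻¹) := by group
    rw [e2]
    exact K.mul_mem hk (hKn.conj_mem _ (K.inv_mem hk) a)
  -- the perfect group
  obtain ⟨J, hJ, hSJ, hJA⟩ := hr.2.2
  obtain ⟨Jh, hJh⟩ : ∃ Jh, Jh = J.comap (QuotientGroup.mk' (center K)) := ⟨_, rfl⟩
  have hJhz : ∀ j ∈ Jh, ∀ z : K, (z : G) ∈ A → ∃ w ∈ center K, j * z = w * z * j := by
    intro j hj z hz
    rw [hJh] at hj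
    have h1 := (mem_centralizer_iff.1 (hJA hj)) (QuotientGroup.mk' (center K) z) ⟨z, hz, rfl⟩
    rw [← map_mul, ← map_mul] at h1
    have h2 : (z * j)⁻¹ * (j * z) ∈ center K := QuotientGroup.eq.mp h1
    have h3 := (inferInstance : (center K).Normal).conj_mem _ h2 (z * j)
    refine ⟨_, h3, ?_⟩
    group
  have hJ1z : ∀ j ∈ ⁅Jh, Jh⁆, ∀ z : K, (z : G) ∈ A → j * z = z * j := by
    intro j hj z hz
    have hle : ⁅Jh, Jh⁆ ≤ centralizer ({z} : Set K) := by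
      rw [commutator_le]
      intro g₁ h₁ g₂ h₂
      rw [mem_centralizer_singleton_iff, commutatorElement_def]
      obtain ⟨w₁, hw₁, e₁⟩ := hJhz g₁ h₁ z hz
      obtain ⟨w₂, hw₂, e₂⟩ := hJhz g₂ h₂ z hz
      exact commutator_commute (mem_center_iff.1 hw₁) (mem_center_iff.1 hw₂) e₁ e₂
    exact mem_centralizer_singleton_iff.1 (hle hj)
  have hJhmem : ∀ j ∈ Jh, ∃ j₁ ∈ ⁅Jh, Jh⁆, ∃ z ∈ center K, j = j₁ * z := by
    intro j hj
    have h1 : (⁅Jh, Jh⁆).map (QuotientGroup.mk' (center K)) = J := by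
      rw [map_commutator, hJh, map_comap_eq_self_of_surjective (QuotientGroup.mk'_surjective _), hJ]
    have h2 : QuotientGroup.mk' (center K) j ∈ (⁅Jh, Jh⁆).map (QuotientGroup.mk' (center K)) := by
      rw [h1]
      rw [hJh] at hj
      exact hj
    obtain ⟨j₁, hj₁, e⟩ := h2
    have h3 : j₁⁻¹ * j ∈ center K := QuotientGroup.eq.mp e
    exact ⟨j₁, hj₁, _, h3, by group⟩
  have hJhY1 : Jh.map K.subtype ≤ Y1 := by
    rintro _ ⟨j, hj, rfl⟩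
    refine (hY1mem _).2 ⟨hKY j.2, ?_⟩
    intro x hx
    obtain ⟨j₁, hj₁, z, hz, rfl⟩ := hJhmem j hj
    have h1 := hJ1z j₁ hj₁ ⟨x, hx.2⟩ hx.1
    have h2 := (mem_center_iff.1 hz) ⟨x, hx.2⟩
    have h3 : (⟨x, hx.2⟩ : K) * (j₁ * z) = (j₁ * z) * ⟨x, hx.2⟩ := by
      calc (⟨x, hx.2⟩ : K) * (j₁ * z) = (⟨x, hx.2⟩ * j₁) * z := by group
        _ = j₁ * (⟨x, hx.2⟩ * z) := by rw [← h1]; group
        _ = (j₁ * z) * ⟨x, hx.2⟩ := by rw [h2]; group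
    exact congrArg Subtype.val h3
  have hsJ : (⟨s, hs.2⟩ : K) ∈ Jh := by
    rw [hJh]
    exact hSJ ((mem_PB_iff hZS _).2 hs.1)
  obtain ⟨j₁, hj₁, z, hz, e⟩ := hJhmem _ hsJ
  have hzc := mem_center_of.1 hz
  have hj₁S : (j₁ : G) ∈ (S : Subgroup G) := by
    have e1 : (j₁ : G) = s * (z : G)⁻¹ := by
      have := congrArg Subtype.val e
      simp only [Subgroup.coe_mul] at this
      rw [this]; group
    rw [e1]
    exact mul_mem hs.1 (inv_mem (hZS z z.2 hzc))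
  have hj₁Y : (j₁ : G) ∈ Y1 := hSY1 _ hj₁S (hKY j₁.2)
  have hj₁c : (⟨j₁, hj₁Y⟩ : Y1) ∈ _root_.commutator Y1 := by
    have h1 : (j₁ : G) ∈ (⁅Jh, Jh⁆).map K.subtype := ⟨j₁, hj₁, rfl⟩
    rw [map_commutator] at h1
    have h2 := (commutator_mono hJhY1 hJhY1) h1
    rw [← map_subtype_commutator] at h2
    obtain ⟨y, hy, e⟩ := h2
    have : y = ⟨j₁, hj₁Y⟩ := Subtype.ext e
    rwa [← this]
  have hfin := focal_commute P hDcl hDab ((A ⊓ K).subgroupOf Y1) hZcen (a := ⟨a, haY1⟩) ha hcon ((hPiff ⟨j₁, hj₁Y⟩).2 hj₁S) hj₁c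
  have h1 : (j₁ : G) * a = a * j₁ := congrArg Subtype.val hfin
  have h2 : s = (j₁ : G) * z := congrArg Subtype.val e
  have h3 : a * (z : G) = z * a := hcen z z.2 hzc a
  rw [h2]
  calc (j₁ : G) * z * a = j₁ * (z * a) := by group
    _ = j₁ * (a * z) := by rw [h3]
    _ = (j₁ * a) * z := by group
    _ = a * (j₁ * z) := by rw [h1]; group

/-- **type B.** -/
theorem Sit.typeB (hI : InnerHyp.{u} p) (h : Sit S A) {K : Subgroup G} (hK : IsComponent K)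
    (hr : RowB p (PB (S : Subgroup G) K) (PB A K)) :
    (groupFusionSystem (S : Subgroup G)).IsNormal (A ⊓ K) ∧ (∀ x ∈ A ⊓ K, ∀ y ∈ A ⊓ K, x * y = y * x) ∧
      ∀ a ∈ A, ∃ k ∈ A ⊓ K, k⁻¹ * a ∈ centralizer (K : Set G) := by
  have hKn := h.comp_normal hK
  have hcard : Nat.card ↥(A ⊓ K) = p := by rw [h.card_inf hK]; exact hr.2.1
  have hZS : ∀ z ∈ K, z ∈ centralizer (K : Set G) → z ∈ (S : Subgroup G) := fun z hz hzc =>
    Lib.Cores.pCore_le_sylow S (h.center_le hK hz hzc)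
  have hab : ∀ x ∈ A ⊓ K, ∀ y ∈ A ⊓ K, x * y = y * x := by
    intro x hx y hy
    exact h.commute_typeB hK hr hy.1 ⟨h.closed.1 hx.1, hx.2⟩
  refine ⟨?_, hab, ?_⟩
  · refine H759.isNormal_of_abelian S.2 (H802.groupFusionSystem_isSaturated S) (stronglyClosed_fusion ⟨?_, ?_⟩) ?_
    · exact inf_le_left.trans h.closed.1
    · exact fun x hx g hg => ⟨h.closed.2 x hx.1 g hg, hKn.conj_mem x hx.2 g⟩
    · rw [commutator_eq_bot_iff_le_centralizer]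
      intro x hx
      rw [mem_centralizer_iff]
      exact fun y hy => hab y hy x hx
  · intro a ha
    obtain ⟨k, c, hk, hcS, hcK, hakc, hkc⟩ := exists_split hI h.core_eq_bot hK S (h.closed.1 ha)
      (fun q hq => (h.commute_typeB hK hr ha hq).symm)
    have h1 : QuotientGroup.mk' (center K) ⟨k, hk.2⟩ ∈ PB A K := by
      rw [hr.1]
      refine mem_inf.2 ⟨(mem_PB_iff hZS _).2 hk.1, mem_centralizer_iff.2 ?_⟩
      rintro _ ⟨q, hq, rfl⟩
      rw [← map_mul, ← map_mul]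
      congr 1
      exact Subtype.ext (hkc q ⟨hq, q.2⟩).symm
    obtain ⟨t, ht, e⟩ := h1
    have h2 : t⁻¹ * ⟨k, hk.2⟩ ∈ center K := QuotientGroup.eq.mp e
    refine ⟨t, ⟨ht, t.2⟩, ?_⟩
    rw [hakc, ← mul_assoc]
    exact mul_mem (mem_center_of.1 h2) hcK

end Cfsg.Agent.H760.Str
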