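import Cfsg.Agent.H760.StrG2
/-!
# The reduction modulo `O_A(G)`, and the theorem from the row hypotheses (helper760, for S5305)

* `Sit.cfg` : the configuration `Cfg`;
* `Sit.ctl_A`, `Sit.ctl_S`;
* `sit_quotient` : the situation `Sit` in `G / N`;
* `concl_of_sit` : the statement S5305 from the `Ctl` statements for `G / N`.
-/
set_option autoImplicit false

universe u

namespace Cfsg.Agent.H760.Str

open Subgroup Cfsg Cfsg.Agent.H792.MinClosed
open scoped commutatorElement

variable {G : Type u} [Group G] [Finite G] {p : ℕ} [hpf : Fact p.Prime]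
variable {S : Sylow p G} {A : Subgroup G}

/-- the components of the first type -/
def TA (S A : Subgroup G) (K : Subgroup G) : Prop :=
  (groupFusionSystem S).IsNormal (S ⊓ K) ∧ ∀ X ≤ S ⊓ K, X ⊔ (A ⊓ K) = S ⊓ K → X = S ⊓ K

theorem Sit.cfg (hI : InnerHyp.{u} p) (hZ : ZStarHyp.{u} p) (hR : RowFF.{u} p) (h : Sit S A) :
    Cfg S A (TA (S : Subgroup G) A) := by
  have hB : ∀ K : Subgroup G, IsComponent K → ¬ TA (S : Subgroup G) A K →
      RowB p (PB (S : Subgroup G) K) (PB A K) := by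
    intro K hK hT
    rcases h.rows hI hZ hR hK with h1 | h1
    · exact absurd (h.typeA hK h1) hT
    · exact h1
  exact
    { sit := h
      split := fun K hK _ s hs hc => by
        obtain ⟨k, c, hk, -, hc, e, -⟩ := exists_split hI h.core_eq_bot hK S hs hc
        exact ⟨k, c, hk, hc, e⟩
      normN := fun K _ hT => hT.1
      gen := fun K _ hT X hX hXA => hT.2 X hX hXA
      normG := fun K hK hT => (h.typeB hI hK (hB K hK hT)).1
      abG := fun K hK hT => (h.typeB hI hK (hB K hK hT)).2.1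
      facG := fun K hK hT => (h.typeB hI hK (hB K hK hT)).2.2 }

theorem Sit.ctl_A (hI : InnerHyp.{u} p) (hZ : ZStarHyp.{u} p) (hR : RowFF.{u} p) (h : Sit S A) : Ctl (S : Subgroup G) A :=
  (h.cfg hI hZ hR).ctl_A

/-- the row hypothesis without the exception -/
def RowF (p : ℕ) : Prop :=
  ∀ (L : Type u) [Group L] [Finite L] [IsSimpleGroup L], ¬ IsMulCommutative L → ∀ (P : Sylow p L) (T : Subgroup L),
    T ≠ ⊥ → T < (P : Subgroup L) → IsStronglyClosed T (P : Subgroup L) → RowA (P : Subgroup L) T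

theorem Sit.ctl_S (hI : InnerHyp.{u} p) (hZ : ZStarHyp.{u} p) (hR : RowF.{u} p) (h : Sit S A) :
    Ctl (S : Subgroup G) (S : Subgroup G) := by
  have hR' : RowFF.{u} p := fun L _ _ _ hL P T h1 h2 h3 => Or.inl (hR L hL P T h1 h2 h3)
  exact (h.cfg hI hZ hR').ctl_S fun K hK => h.typeA hK (h.row_of hI hZ hK (R := fun L _ P T => RowA P T) hR)

/-- The situation in the quotient. -/
theorem sit_quotient (S : Sylow p G) {A : Subgroup G} (hsc : IsStronglyClosed A (S : Subgroup G))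
    (hgen : normalClosure (A : Set G) = ⊤) (N : Subgroup G) [hNn : N.Normal] (hN : ¬ p ∣ (A ⊓ N).relIndex N)
    (hNmax : ∀ M : Subgroup G, M.Normal → ¬ p ∣ (A ⊓ M).relIndex M → M ≤ N) :
    Sit (S.mapSurjective (QuotientGroup.mk'_surjective N)) (A.map (QuotientGroup.mk' N)) := by
  refine ⟨H280.StrongQuot.stronglyClosed_map_quotient S hsc N, ?_, ?_⟩
  · rw [coe_map, ← map_normalClosure _ _ (QuotientGroup.mk'_surjective N), hgen, ← MonoidHom.range_eq_map,
      MonoidHom.range_eq_top.2 (QuotientGroup.mk'_surjective N)]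
  · intro M hM hMp
    have hMc : (M.comap (QuotientGroup.mk' N)).Normal := inferInstance
    obtain ⟨M', hM'⟩ : ∃ M', M' = M.comap (QuotientGroup.mk' N) := ⟨_, rfl⟩
    have hNM' : N ≤ M' := by
      rw [hM']
      intro n hn
      rw [mem_comap]
      have : QuotientGroup.mk' N n = 1 := (QuotientGroup.eq_one_iff n).2 hn
      rw [this]; exact one_mem _
    have hmem : ∀ x : G, x ∈ M' ↔ QuotientGroup.mk' N x ∈ M := fun x => by rw [hM']; rfl
    -- `S ∩ N ≤ A`
    have hSN : (S : Subgroup G) ⊓ N ≤ A := by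
      have h2 := H222.SylowJoin.le_of_not_dvd (S.2.to_le (inf_le_left : (S : Subgroup G) ⊓ N ≤ S)) inf_le_right
        (inf_le_inf_right N hsc.1) hN
      exact h2.trans inf_le_left
    have hSM : (S : Subgroup G) ⊓ M' ≤ A := by
      intro s hs
      have h2 : ((S : Subgroup G).map (QuotientGroup.mk' N)) ⊓ M ≤ A.map (QuotientGroup.mk' N) ⊓ M :=
        H222.SylowJoin.le_of_not_dvd ((S.2.map (QuotientGroup.mk' N)).to_le inf_le_left) inf_le_right
          (inf_le_inf_right M (map_mono hsc.1)) hMp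
      obtain ⟨a, ha, e⟩ := (h2 ⟨⟨s, hs.1, rfl⟩, (hmem s).1 hs.2⟩).1
      have h3 : a⁻¹ * s ∈ N := QuotientGroup.eq.mp e
      have h4 := hSN ⟨(S : Subgroup G).mul_mem ((S : Subgroup G).inv_mem (hsc.1 ha)) hs.1, h3⟩
      have h5 := A.mul_mem ha h4
      rwa [mul_inv_cancel_left] at h5
    have hM'n : M'.Normal := by rw [hM']; exact hMc
    have hkey : ¬ p ∣ (A ⊓ M').relIndex M' := by
      have e : A ⊓ M' = (S : Subgroup G) ⊓ M' := le_antisymm (inf_le_inf_right _ hsc.1) (le_inf hSM inf_le_right)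
      rw [e, inf_relIndex_right]
      exact H222.SylowJoin.not_dvd_relIndex_of_subnormal S.2 S.not_dvd_index (Normal.isSubnormal hM'n)
    have h1 := hNmax M' (by rw [hM']; exact hMc) hkey
    rw [eq_bot_iff]
    intro x hx
    obtain ⟨y, rfl⟩ := QuotientGroup.mk'_surjective N x
    have h2 : y ∈ M' := by rw [hM']; exact hx
    exact (QuotientGroup.eq_one_iff y).2 (h1 h2)

omit [Finite G] hpf in
/-- `Ctl` for sets instead of subgroups -/
theorem Ctl.set {S Q : Subgroup G} (h : Ctl S Q) (B : Set G) (g : G) (hB : B ⊆ (S : Set G)) (hg : ∀ b ∈ B, g * b * g⁻¹ ∈ S) :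
    ∃ x ∈ normalizer (Q : Set G), ∀ b ∈ B, x * b * x⁻¹ = g * b * g⁻¹ := by
  obtain ⟨n, hn, hnB⟩ := h (closure B) ((closure_le S).2 hB) g (by
    intro x hx
    have h1 : closure B ≤ S.comap (MulAut.conj g).toMonoidHom := by
      rw [closure_le]
      intro b hb
      exact hg b hb
    exact h1 hx)
  exact ⟨n, hn, fun b hb => hnB b (subset_closure hb)⟩

/-- The statement from `Ctl` in the situation `Sit`. -/
theorem concl_of_sit (hA : ∀ (H : Type u) [Group H] [Finite H] (P : Sylow p H) (D : Subgroup H), Sit P D →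
      Ctl (P : Subgroup H) D)
    (hS : p ≠ 3 → ∀ (H : Type u) [Group H] [Finite H] (P : Sylow p H) (D : Subgroup H), Sit P D →
      Ctl (P : Subgroup H) (P : Subgroup H))
    (S : Sylow p G) (A : Subgroup G) (hsc : Cfsg.IsStronglyClosed A (S : Subgroup G))
    (hgen : Subgroup.normalClosure (A : Set G) = ⊤) (N : Subgroup G) [N.Normal] (hN : ¬ p ∣ (A ⊓ N).relIndex N)
    (hNmax : ∀ M : Subgroup G, M.Normal → ¬ p ∣ (A ⊓ M).relIndex M → M ≤ N) :
    (∀ (B : Set (G ⧸ N)) (g : (G ⧸ N)), B ⊆ (((S : Subgroup G).map (QuotientGroup.mk' N)) : Set (G ⧸ N)) → (∀ b ∈ B, g * b * g⁻¹ ∈ ((S : Subgroup G).map (QuotientGroup.mk' N))) →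
        ∃ x ∈ Subgroup.normalizer (((A.map (QuotientGroup.mk' N)) : Subgroup (G ⧸ N)) : Set (G ⧸ N)), ∀ b ∈ B, x * b * x⁻¹ = g * b * g⁻¹) ∧
    (p ≠ 3 → (∀ (B : Set (G ⧸ N)) (g : (G ⧸ N)), B ⊆ (((S : Subgroup G).map (QuotientGroup.mk' N)) : Set (G ⧸ N)) → (∀ b ∈ B, g * b * g⁻¹ ∈ ((S : Subgroup G).map (QuotientGroup.mk' N))) →
        ∃ x ∈ Subgroup.normalizer ((((S : Subgroup G).map (QuotientGroup.mk' N)) : Subgroup (G ⧸ N)) : Set (G ⧸ N)), ∀ b ∈ B, x * b * x⁻¹ = g * b * g⁻¹)) := by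
  have hsit := sit_quotient S hsc hgen N hN hNmax
  refine ⟨fun B g hB hg => ?_, fun hp3 B g hB hg => ?_⟩
  · exact (hA _ _ _ hsit).set B g hB hg
  · exact (hS hp3 _ _ _ hsit).set B g hB hg

end Cfsg.Agent.H760.Str
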