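import Cfsg.Agent.H760.StrGen
import Cfsg.Agent.LieRecognition.ReeSylowThree
import Cfsg.Agent.ChevalleyStructure.Ree.Data
/-!
# The small Ree groups, `p = 3` (helper760, for S5305)

`genP_ree` : a strongly closed subgroup `T ≠ S` of a Sylow 3-subgroup `S` of `²G₂(q)` consists of nongenerators of `S`.
-/
set_option autoImplicit false

namespace Cfsg.Agent.H760.StrRee

open Subgroup Cfsg Cfsg.Agent.LieRecognition.ReeAbs Cfsg.Agent.LieRecognition.ReeSylowThree Cfsg.Agent.H760.Str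

variable {K : Type*} [Field K] [Fintype K] {m : ℕ}

/-! ### The field -/

theorem add_pow_tau (hK : Fintype.card K = 3 ^ (2 * m + 1)) (a b : K) :
    (a + b) ^ 3 ^ (m + 1) = a ^ 3 ^ (m + 1) + b ^ 3 ^ (m + 1) := by
  have : CharP K 3 := charP_three hK
  have : Fact (Nat.Prime 3) := ⟨Nat.prime_three⟩
  exact add_pow_char_pow a b 3 (m + 1)

theorem sub_pow_tau (hK : Fintype.card K = 3 ^ (2 * m + 1)) (a b : K) :
    (a - b) ^ 3 ^ (m + 1) = a ^ 3 ^ (m + 1) - b ^ 3 ^ (m + 1) := by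
  have : CharP K 3 := charP_three hK
  have : Fact (Nat.Prime 3) := ⟨Nat.prime_three⟩
  exact sub_pow_char_pow a b (m + 1)

theorem three_eq (hK : Fintype.card K = 3 ^ (2 * m + 1)) : (3 : K) = 0 := by
  have : CharP K 3 := charP_three hK
  exact_mod_cast CharP.cast_eq_zero K 3

/-- `(x ^ τ) ^ τ = x ^ 3` -/
theorem pow_tau_tau (hK : Fintype.card K = 3 ^ (2 * m + 1)) (a : K) : (a ^ 3 ^ (m + 1)) ^ 3 ^ (m + 1) = a ^ 3 := by
  rw [← pow_mul, ← pow_add, show m + 1 + (m + 1) = (2 * m + 1) + 1 by ring, pow_succ, pow_mul, ← hK,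
    FiniteField.pow_card]

theorem exists_tau (hK : Fintype.card K = 3 ^ (2 * m + 1)) (c : Kˣ) : ∃ a : Kˣ, a ^ 3 ^ (m + 1) = c := by
  have hinj : Function.Injective (fun a : Kˣ => a ^ 3 ^ (m + 1)) := by
    intro a b hab
    have h1 : (a : K) ^ 3 ^ (m + 1) = (b : K) ^ 3 ^ (m + 1) := by
      have := congrArg Units.val hab
      simpa using this
    have h2 : ((a : K) - b) ^ 3 ^ (m + 1) = 0 := by rw [sub_pow_tau hK, h1, sub_self]
    have h3 : (a : K) - b = 0 := (pow_eq_zero_iff (by positivity)).1 h2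
    exact Units.ext (sub_eq_zero.1 h3)
  exact (Finite.injective_iff_surjective.1 hinj) c

theorem exists_tau_ne (hK : Fintype.card K = 3 ^ (2 * m + 1)) (hm : 1 ≤ m) : ∃ t : K, t ^ 3 ^ (m + 1) ≠ t := by
  by_contra hcon
  push Not at hcon
  obtain ⟨g, hg⟩ := IsCyclic.exists_generator (α := Kˣ)
  have h1 : (g : K) ^ 3 = g := by
    have := pow_tau_tau hK (g : K)
    rw [hcon, hcon] at this
    exact this.symm
  have h2 : g ^ 2 = 1 := by
    have h3 : g ^ 3 = g := Units.ext (by push_cast; exact h1)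
    have h4 : g ^ 2 * g = 1 * g := by rw [← pow_succ, h3, one_mul]
    exact mul_right_cancel h4
  have h3 : Nat.card Kˣ ∣ 2 := by
    rw [← orderOf_eq_card_of_forall_mem_zpowers hg]
    exact orderOf_dvd_of_pow_eq_one h2
  have h4 : Nat.card Kˣ = Fintype.card K - 1 := by
    rw [Nat.card_units, Nat.card_eq_fintype_card]
  have h5 : 27 ≤ Fintype.card K := by
    rw [hK]
    calc 27 = 3 ^ 3 := by norm_num
      _ ≤ 3 ^ (2 * m + 1) := Nat.pow_le_pow_right (by norm_num) (by omega)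
  have h6 := Nat.le_of_dvd (by norm_num) h3
  omega

/-- The additive group generated by the `t' t ^ τ - t t' ^ τ` is `K`. -/
theorem closure_eq (hK : Fintype.card K = 3 ^ (2 * m + 1)) (hm : 1 ≤ m) (M : AddSubgroup K)
    (hM : ∀ t t' : K, t' * t ^ 3 ^ (m + 1) - t * t' ^ 3 ^ (m + 1) ∈ M) (x : K) : x ∈ M := by
  obtain ⟨M0, hM0⟩ : ∃ M0 : AddSubgroup K, M0 = AddSubgroup.closure
    (Set.range fun tt : K × K => tt.2 * tt.1 ^ 3 ^ (m + 1) - tt.1 * tt.2 ^ 3 ^ (m + 1)) := ⟨_, rfl⟩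
  have hle : M0 ≤ M := by
    rw [hM0, AddSubgroup.closure_le]
    rintro _ ⟨tt, rfl⟩
    exact hM tt.1 tt.2
  have hgen : ∀ t t' : K, t' * t ^ 3 ^ (m + 1) - t * t' ^ 3 ^ (m + 1) ∈ M0 := by
    intro t t'
    rw [hM0]
    exact AddSubgroup.subset_closure ⟨(t, t'), rfl⟩
  -- multiplication by `l ^ (τ + 1)`
  have h1 : ∀ l : K, ∀ y ∈ M0, l ^ (3 ^ (m + 1) + 1) * y ∈ M0 := by
    intro l y hy
    rw [hM0] at hy
    refine AddSubgroup.closure_induction (p := fun y _ => l ^ (3 ^ (m + 1) + 1) * y ∈ M0) ?_ ?_ ?_ ?_ hy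
    · rintro _ ⟨⟨t, t'⟩, rfl⟩
      have e : l ^ (3 ^ (m + 1) + 1) * (t' * t ^ 3 ^ (m + 1) - t * t' ^ 3 ^ (m + 1)) =
          (l * t') * (l * t) ^ 3 ^ (m + 1) - (l * t) * (l * t') ^ 3 ^ (m + 1) := by
        rw [mul_pow, mul_pow, pow_succ]; ring
      show l ^ (3 ^ (m + 1) + 1) * (t' * t ^ 3 ^ (m + 1) - t * t' ^ 3 ^ (m + 1)) ∈ M0
      rw [e]
      exact hgen _ _
    · rw [mul_zero]; exact M0.zero_mem
    · intro a b _ _ ha hb
      rw [mul_add]; exact M0.add_mem ha hb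
    · intro a _ ha
      rw [mul_neg]; exact M0.neg_mem ha
  -- multiplication by squares
  have h2 : ∀ l : K, ∀ y ∈ M0, l ^ 2 * y ∈ M0 := by
    intro l y hy
    by_cases hl : l = 0
    · rw [hl, zero_pow (by norm_num), zero_mul]; exact M0.zero_mem
    have h3 := h1 (l ^ (3 ^ (m + 1) - 1)) y hy
    have e : (l ^ (3 ^ (m + 1) - 1)) ^ (3 ^ (m + 1) + 1) = l ^ 2 := by
      have hpos : 1 ≤ 3 ^ (m + 1) := Nat.one_le_pow _ _ (by norm_num)
      have e1 : (l ^ (3 ^ (m + 1) - 1)) ^ (3 ^ (m + 1) + 1) * l = l ^ 2 * l := by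
        rw [← pow_mul, ← pow_succ, ← pow_succ]
        have e2 : (3 ^ (m + 1) - 1) * (3 ^ (m + 1) + 1) + 1 = 3 ^ (m + 1) * 3 ^ (m + 1) := by
          obtain ⟨r, hr⟩ := Nat.exists_eq_add_of_le hpos
          rw [hr]
          simp only [Nat.add_sub_cancel_left]
          ring
        rw [e2, pow_mul, pow_tau_tau hK]
      exact mul_right_cancel₀ hl e1
    rwa [e] at h3
  have h3 : ∀ r : K, ∀ y ∈ M0, r * y ∈ M0 := by
    intro r y hy
    have e : r * y = (r + 1) ^ 2 * y - (r - 1) ^ 2 * y := by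
      have := three_eq hK
      linear_combination (-(r * y)) * this
    rw [e]
    exact M0.sub_mem (h2 _ _ hy) (h2 _ _ hy)
  obtain ⟨t, ht⟩ := exists_tau_ne hK hm
  have h4 := hgen t 1
  rw [one_mul, one_pow, mul_one] at h4
  have h5 : t ^ 3 ^ (m + 1) - t ≠ 0 := sub_ne_zero.2 ht
  have h6 := h3 (x / (t ^ 3 ^ (m + 1) - t)) _ h4
  rw [div_mul_cancel₀ x h5] at h6
  exact hle h6

/-! ### The subgroups of `uSub` -/

variable {G : Type*} [Group G] {U : K → K → K → G} {h : Kˣ → G} {n : G}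

/-- the first coordinates of the elements of `Y` -/
def WW (D : Data m U h n) (Y : Subgroup G) : AddSubgroup K where
  carrier := {t | ∃ u v, U t u v ∈ Y}
  zero_mem' := ⟨0, 0, by rw [D.U_zero]; exact Y.one_mem⟩
  add_mem' := by
    rintro t t' ⟨u, v, h1⟩ ⟨u', v', h2⟩
    have h3 := Y.mul_mem h1 h2
    rw [D.U_mul] at h3
    exact ⟨_, _, h3⟩
  neg_mem' := by
    rintro t ⟨u, v, h1⟩
    obtain ⟨t', u', v', h2⟩ := U_inv D t u v
    have h3 : U t u v * U t' u' v' = U 0 0 0 := by rw [← h2, mul_inv_cancel, D.U_zero]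
    rw [D.U_mul] at h3
    have h4 : t + t' = 0 := (U_injective D h3).1
    have h5 : t' = -t := by linear_combination h4
    refine ⟨u', v', ?_⟩
    rw [← h5, ← h2]
    exact Y.inv_mem h1

/-- the second coordinates -/
def W2 (D : Data m U h n) (Y : Subgroup G) : AddSubgroup K where
  carrier := {u | ∃ v, U 0 u v ∈ Y}
  zero_mem' := ⟨0, by rw [D.U_zero]; exact Y.one_mem⟩
  add_mem' := by
    rintro u u' ⟨v, h1⟩ ⟨v', h2⟩
    have h3 := Y.mul_mem h1 h2
    rw [D.U_mul] at h3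
    refine ⟨v + v', ?_⟩
    convert h3 using 1
    congr 1 <;> ring
  neg_mem' := by
    rintro u ⟨v, h1⟩
    refine ⟨-v, ?_⟩
    have h3 : (U 0 u v)⁻¹ = U 0 (-u) (-v) := by
      rw [inv_eq_iff_mul_eq_one, D.U_mul, ← D.U_zero]
      congr 1 <;> ring
    rw [← h3]
    exact Y.inv_mem h1

theorem uSub_le (D : Data m U h n) (hK : Fintype.card K = 3 ^ (2 * m + 1)) (hm : 1 ≤ m) {Y : Subgroup G}
    (hY : ∀ t, t ∈ WW D Y) : uSub D ≤ Y := by
  have hmul0 : ∀ x y s r w : K, U 0 x y * U s r w = U s (x + r) (y + w - x * s) := by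
    intro x y s r w
    rw [D.U_mul]
    congr 1 <;> ring
  -- the second coordinates
  have hW2 : ∀ u, u ∈ W2 D Y := by
    refine closure_eq hK hm _ fun t t' => ?_
    obtain ⟨u, v, h1⟩ := hY t
    obtain ⟨u', v', h2⟩ := hY t'
    have h3 := Y.mul_mem (Y.mul_mem h1 h2) (Y.inv_mem (Y.mul_mem h2 h1))
    have e : ∃ y, U t u v * U t' u' v' = U 0 (t' * t ^ 3 ^ (m + 1) - t * t' ^ 3 ^ (m + 1)) y * (U t' u' v' * U t u v) := by
      refine ⟨(v + v' - u * t' - t ^ 2 * t' ^ (3 ^ (m + 1)) + t * t' * t' ^ (3 ^ (m + 1))) -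
        (v' + v - u' * t - t' ^ 2 * t ^ (3 ^ (m + 1)) + t' * t * t ^ (3 ^ (m + 1))) +
          (t' * t ^ 3 ^ (m + 1) - t * t' ^ 3 ^ (m + 1)) * (t' + t), ?_⟩
      rw [D.U_mul, D.U_mul, hmul0]
      congr 1 <;> ring
    obtain ⟨y, hy⟩ := e
    refine ⟨y, ?_⟩
    rw [hy, mul_inv_cancel_right] at h3
    exact h3
  have hW3 : ∀ v, U 0 0 v ∈ Y := by
    intro v
    obtain ⟨u1, v1, h1⟩ := hY 1
    obtain ⟨v2, h2⟩ := hW2 (-v)
    have h3 := Y.mul_mem (Y.mul_mem h2 h1) (Y.inv_mem (Y.mul_mem h1 h2))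
    have e : U 0 (-v) v2 * U 1 u1 v1 = U 0 0 v * (U 1 u1 v1 * U 0 (-v) v2) := by
      rw [D.U_mul, D.U_mul, hmul0]
      congr 1 <;> ring_nf
    rwa [e, mul_inv_cancel_right] at h3
  rintro _ ⟨t, u, v, rfl⟩
  obtain ⟨u1, v1, h1⟩ := hY t
  obtain ⟨w, h2⟩ := hW2 (u - u1)
  have h3 := Y.mul_mem (hW3 (v - (w + v1 - (u - u1) * t))) (Y.mul_mem h2 h1)
  rw [hmul0, hmul0] at h3
  convert h3 using 1
  congr 1 <;> ring

theorem WW_eq (D : Data m U h n) (hK : Fintype.card K = 3 ^ (2 * m + 1)) {T : Subgroup G}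
    (hT : IsStronglyClosed T (uSub D)) {t0 : K} (h0 : t0 ≠ 0) (ht0 : t0 ∈ WW D T) (t : K) : t ∈ WW D T := by
  by_cases ht : t = 0
  · rw [ht]; exact (WW D T).zero_mem
  obtain ⟨a, ha⟩ := exists_tau hK (Units.mk0 (t / t0) (div_ne_zero ht h0))
  obtain ⟨u, v, h1⟩ := ht0
  have h2 := hT.2 _ h1 (h a) (h_conj_mem D a ⟨t0, u, v, rfl⟩)
  rw [D.h_U, mul_inv_cancel_right] at h2
  have e : (a : K) ^ 3 ^ (m + 1) * t0 = t := by
    have h3 : (a : K) ^ 3 ^ (m + 1) = t / t0 := by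
      have := congrArg Units.val ha
      simpa using this
    rw [h3, div_mul_cancel₀ t h0]
  rw [e] at h2
  exact ⟨_, _, h2⟩

theorem gen_data (D : Data m U h n) (hK : Fintype.card K = 3 ^ (2 * m + 1)) (hm : 1 ≤ m) {T : Subgroup G}
    (hT : IsStronglyClosed T (uSub D)) (hne : T ≠ uSub D) :
    ∀ X ≤ uSub D, X ⊔ T = uSub D → X = uSub D := by
  have hfin : Finite G := finite D
  have hT0 : ∀ t u v, U t u v ∈ T → t = 0 := by
    intro t u v h1
    by_contra h0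
    exact hne (le_antisymm hT.1 (uSub_le D hK hm (WW_eq D hK hT h0 ⟨u, v, h1⟩)))
  intro X hX hXT
  refine le_antisymm hX (uSub_le D hK hm fun t => ?_)
  have hle : X ≤ normalizer (T : Set G) := fun x hx =>
    Transfer.FusionBasic.mem_normalizer_of_conj_mem fun y hy =>
      hT.2 y hy x (mul_mem (mul_mem (hX hx) (hT.1 hy)) (inv_mem (hX hx)))
  have h3 : U t 0 0 ∈ ((X ⊔ T : Subgroup G) : Set G) := by
    rw [hXT]; exact ⟨t, 0, 0, rfl⟩
  rw [Subgroup.coe_mul_of_left_le_normalizer_right X T hle] at h3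
  obtain ⟨x, hx, y, hy, e⟩ := h3
  obtain ⟨a, b, c, rfl⟩ := hX hx
  obtain ⟨a', b', c', rfl⟩ := hT.1 hy
  have ha' : a' = 0 := hT0 _ _ _ hy
  have e' : U a b c * U a' b' c' = U t 0 0 := e
  rw [D.U_mul] at e'
  have h4 : a + a' = t := (U_injective D e').1
  rw [ha', add_zero] at h4
  exact ⟨b, c, by rw [← h4]; exact hx⟩

theorem genP_data (D : Data m U h n) (hK : Fintype.card K = 3 ^ (2 * m + 1)) (hm : 1 ≤ m) :
    GenP 3 G := by
  have : Finite G := finite D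
  have : Fact (Nat.Prime 3) := ⟨Nat.prime_three⟩
  -- `uSub` is a Sylow subgroup
  have hcardU : Nat.card (uSub D) = 3 ^ (3 * (2 * m + 1)) := by
    rw [card_uSub, hK, ← pow_mul, mul_comm]
  have hfac : (Nat.card G).factorization 3 = 3 * (2 * m + 1) := by
    rw [card_eq D, hK]
    set q := 3 ^ (2 * m + 1) with hq
    have hq3 : 3 ∣ q := dvd_pow_self 3 (by omega)
    have hq0 : 0 < q := by positivity
    have h1 : ¬ 3 ∣ (q - 1) * (q ^ 3 + 1) := by
      rw [Nat.prime_three.dvd_mul]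
      have h3 : 3 ∣ q ^ 3 := dvd_pow hq3 (by norm_num)
      rintro (h | h) <;> omega
    rw [mul_assoc, Nat.factorization_mul (by positivity) (by intro h0; rw [h0] at h1; exact h1 (dvd_zero 3)),
      Finsupp.add_apply, Nat.factorization_eq_zero_of_not_dvd h1, hq, ← pow_mul,
      Nat.Prime.factorization_pow Nat.prime_three, Finsupp.single_apply, if_pos rfl, add_zero, mul_comm]
  exact GenP.of_one (Sylow.ofCard (uSub D) (by rw [hcardU, hfac])) fun T hT hne => gen_data D hK hm hT hne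

theorem genP_ree {G : Type*} [Group G] [Finite G] (hG : Lie.IsoRee G) : GenP 3 G := by
  have : Fact (Nat.Prime 3) := ⟨Nat.prime_three⟩
  obtain ⟨K, _, _, m, hm, hK, ⟨e⟩⟩ := hG
  obtain ⟨U, h, n, D⟩ := Cfsg.Agent.ChevalleyStructure.Ree.Data.exists_data hK
  exact (genP_data D hK hm).of_mulEquiv e.symm

end Cfsg.Agent.H760.StrRee
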